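import Cfsg.Agent.H154.Split.Core
import Cfsg.Agent.H680.Split.HNPreD
import Cfsg.Agent.HN.A12Step

/-! The common segments of the kernel checks of `Cfsg.Agent.H315.Spr.HNTa` and `HNTb` (helper680), with `Cfsg.Agent.H154.Split`. -/

set_option autoImplicit false
set_option maxRecDepth 100000
set_option Elab.async false

namespace Cfsg.Agent.H680.Split.HNPre

open Cfsg.Agent.H154.Split
open Cfsg.Agent.HN.RepData (C)
open Cfsg.Agent.HN.A12Step (L20)

/-- segment 0 -/
def S0 : Seg where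
  ws := [
    (20, [21]),
    (9, [9]),
    (11, [11]),
    (10, [10]),
    (0, [12, 1, 11]),
    (9, [9]),
    (12, [12]),
    (1, [12, 0, 11]),
    (9, [9]),
    (12, [12]),
    (1, [12, 0, 11]),
    (6, [3, 0]),
    (7, [4]),
    (8, [8, 5]),
    (4, [20, 11, 17]),
    (17, [17]),
    (0, [21, 14, 18]),
    (8, [21, 13, 18]),
    (3, [1, 0])]
  m := [1, 0, 0, 0, 0, 1, 1, 1, 0, 0, 1, 0, 1, 1, 0, 1, 1, 1, 1]
  N := [D18, 0, 0, 0, 0, D13, D12, D11, 0, 0, D8, 0, D6, D5, 0, D3, D2, D1, D0]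
  es := []
  ns := []

/-- segment 1 -/
def S1 : Seg where
  ws := [
    (19, [19]),
    (29, [28, 27, 25, 18, 14, 27, 13, 29, 0]),
    (29, [17, 29, 26, 15, 26, 23, 12, 23, 1]),
    (19, [28, 2, 23, 30, 44, 44, 46, 44, 44, 42, 48, 46, 44, 44, 28, 2, 23, 20])]
  m := [1, 0, 0, 0]
  N := [D22, 0, 0, 0]
  es := []
  ns := []

/-- segment 2 -/
def S2 : Seg where
  ws := [
    (46, [43, 45, 50, 47, 46, 44])]
  m := [1]
  N := [D23]
  es := []
  ns := []

theorem c0 : segC C S0 (L20) = true := by decide +kernel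
theorem c1 : segC C S1 (S0.N ++ (L20)) = true := by decide +kernel
theorem c2 : segC C S2 (S1.N ++ (S0.N ++ (L20))) = true := by decide +kernel

end Cfsg.Agent.H680.Split.HNPre
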